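/-
Real class sizes with the same 2-part: the abstract core (case where no noncentral real
2-element commutes with a real element of odd order).
-/
import Cfsg.Agent.P1.C_1
import Cfsg.Agent.P6.L12
import Cfsg.Agent.H5.Real

set_option autoImplicit false
set_option linter.unusedSectionVars false

namespace Cfsg.Agent.P30

open Subgroup Cfsg Cfsg.Agent Cfsg.Agent.FT MulAction Cfsg.Agent.P6
open scoped commutatorElement

universe u

/-- Abstract data: `L = G / Z`, `Re` the elements with a real lift, `Cl e` the image of the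
centralizer of a lift of `e`. -/
structure Hy {L : Type u} [Group L] (Re : Set L) (Cl : L → Subgroup L) (s : ℕ) : Prop where
  prod : ∀ i g : L, i * i = 1 → i * (g * i * g⁻¹) ∈ Re
  conj : ∀ e g : L, e ∈ Re → g * e * g⁻¹ ∈ Re
  f1 : ∀ l x g : L, l ∈ Re → IsPGroup 2 (zpowers l) → Odd (orderOf x) → g * x * g⁻¹ = x⁻¹ →
    l * x = x * l → l = 1 ∨ x = 1
  symm : ∀ e l, l ∈ Cl e → e ∈ Cl l
  self : ∀ e, e ∈ Cl e
  der : ∀ e u v : L, u ∈ 𝐂[e] → v ∈ 𝐂[e] → ⁅u, v⁆ ∈ Cl e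
  sqm : ∀ e l : L, e * e = 1 → l ∈ 𝐂[e] → l * l ∈ Cl e
  key : ∀ i t : L, i * i = 1 → t * t ∈ Cl i → i * t ∈ Cl (i * (t * i * t⁻¹))
  le : ∀ (e : L) (P : Subgroup L), e ∈ Re → e ≠ 1 → P ≤ Cl e → IsPGroup 2 P → Nat.card P ≤ s
  ge : ∀ (x g : L) (P : Subgroup L), Odd (orderOf x) → x ≠ 1 → g * x * g⁻¹ = x⁻¹ →
    IsSyl 2 P 𝐂[x] → s ≤ Nat.card P
  core : pPrimeCore 2 L = ⊥

variable {L : Type u} [Group L] [Finite L]

theorem pg_of_mem {P : Subgroup L} (hP : IsPGroup 2 P) {y : L} (hy : y ∈ P) :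
    IsPGroup 2 (zpowers y) := hP.to_le (zpowers_le.2 hy)

theorem pg_of_sq {y : L} (hy : y * y = 1) : IsPGroup 2 (zpowers y) := by
  by_cases h : y = 1
  · subst h; rw [zpowers_one_eq_bot]; exact IsPGroup.of_bot
  · exact (⟨h, hy⟩ : P6.Inv y).isPGroup

theorem one_of_odd_mem {P : Subgroup L} (hP : IsPGroup 2 P) {x : L} (hx : x ∈ P)
    (ho : Odd (orderOf x)) : x = 1 := by
  obtain ⟨k, hk⟩ := hP ⟨x, hx⟩
  have hk' : x ^ 2 ^ k = 1 := congrArg Subtype.val hk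
  have := ((Nat.coprime_two_left.2 ho).pow_left k).symm.eq_one_of_dvd
    (orderOf_dvd_of_pow_eq_one hk')
  exact orderOf_eq_one_iff.1 this

/-- Isolation inside a subgroup gives odd products. -/
theorem odd_of_iso {K : Subgroup L} {d : L} (hd : d * d = 1) (hK : d ∈ K)
    (h : ∀ g ∈ K, d * (g * d * g⁻¹) = g * d * g⁻¹ * d → g * d * g⁻¹ = d) {g : L} (hg : g ∈ K) :
    Odd (orderOf (d * (g * d * g⁻¹))) := by
  have := P1.ZS.odd_of_isolated (G := K) (t := ⟨d, hK⟩) (Subtype.ext hd)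
    (fun y hy => Subtype.ext (h y y.2 (congrArg Subtype.val hy.eq))) ⟨g, hg⟩
  rw [← Subgroup.orderOf_coe] at this
  exact this

theorem exists_sq_step {Y S : Subgroup L} (hS : IsPGroup 2 S) (h : Y < S) :
    ∃ u ∈ S, u ∈ 𝐍(Y) ∧ u ∉ Y ∧ u * u ∈ Y := by
  obtain ⟨v, ⟨hvS, hvN⟩, hvY⟩ := SetLike.exists_of_lt
    (lt_inf_norm_of_isNilpotent (isNilpotent_of_isPGroup Nat.prime_two hS) h)
  obtain ⟨k, hk⟩ := hS ⟨v, hvS⟩
  have hk' : v ^ 2 ^ k = 1 := congrArg Subtype.val hk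
  have ex : ∃ n, v ^ 2 ^ n ∈ Y := ⟨k, hk' ▸ Y.one_mem⟩
  classical
  have h0 : Nat.find ex ≠ 0 := fun e => by
    have := Nat.find_spec ex
    rw [e] at this
    exact hvY (by simpa using this)
  obtain ⟨n, hn⟩ := Nat.exists_eq_succ_of_ne_zero h0
  refine ⟨v ^ 2 ^ n, S.pow_mem hvS _, Subgroup.pow_mem _ hvN _, Nat.find_min ex (by omega), ?_⟩
  have := Nat.find_spec ex
  rwa [hn, pow_succ, pow_mul, pow_two] at this

/-- The Sylow 2-subgroup of the centralizer. -/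
abbrev T (d : L) : Subgroup L := pCoreOf 2 𝐂[d]

namespace Hy

variable {Re : Set L} {Cl : L → Subgroup L} {s : ℕ} (h : Hy Re Cl s)
include h

theorem syl {d : L} (hd : P6.Inv d) (hr : d ∈ Re) :
    IsSyl 2 (T d) 𝐂[d] ∧ 𝐂[d] ≤ 𝐍(T d) := by
  have : Fact (Nat.Prime 2) := ⟨Nat.prime_two⟩
  obtain ⟨P⟩ : Nonempty (Sylow 2 𝐂[d]) := inferInstance
  have hn := H5.sylow_two_normal_of_not_real (G := 𝐂[d]) (fun x g ho e => by
    rw [← Subgroup.orderOf_coe] at ho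
    rcases h.f1 d x g hr hd.isPGroup ho (congrArg Subtype.val e) (mem_cent1.1 x.2) with e | e
    · exact absurd e hd.ne
    · exact Subtype.ext e) P
  have hs := isSyl_map_subtype Nat.prime_two P
  have hN : 𝐂[d] ≤ 𝐍((P : Subgroup 𝐂[d]).map (𝐂[d]).subtype) := by
    intro g hg
    refine mem_norm_of_conj_le ?_
    intro y hy
    obtain ⟨_, ⟨z, hz, rfl⟩, rfl⟩ := mem_conj'.1 hy
    exact ⟨_, hn.conj_mem z hz ⟨g, hg⟩, rfl⟩
  have e := hs.pCoreOf_eq Nat.prime_two hN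
  rw [T, e]
  exact ⟨hs, hN⟩

theorem le_T {d : L} (hd : P6.Inv d) (hr : d ∈ Re) {Q : Subgroup L} (hQ : IsPGroup 2 Q)
    (hc : Q ≤ 𝐂[d]) : Q ≤ T d :=
  (h.syl hd hr).1.le_of_normal Nat.prime_two (h.syl hd hr).2 hQ hc

theorem mem_T {d : L} (hd : P6.Inv d) (hr : d ∈ Re) {y : L} (hy : y * y = 1)
    (hc : d * y = y * d) : y ∈ T d :=
  zpowers_le.1 (h.le_T hd hr (pg_of_sq hy) (zpowers_le.2 (mem_cent1.2 hc)))

/-- No nontrivial element of `Re` in a 2-group centralizing a real element of odd order. -/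
theorem eq_one {x g : L} (ho : Odd (orderOf x)) (h1 : x ≠ 1) (hi : g * x * g⁻¹ = x⁻¹)
    {P : Subgroup L} (hP : IsPGroup 2 P) {l : L} (hl : l ∈ P) (hr : l ∈ Re) (hc : l ∈ 𝐂[x]) :
    l = 1 :=
  (h.f1 l x g hr (pg_of_mem hP hl) ho hi (mem_cent1.1 hc).symm).resolve_right h1

theorem ge_S {d x : L} (hd : P6.Inv d) (hr : d ∈ Re) (ho : Odd (orderOf x)) (h1 : x ≠ 1)
    (hi : d * x * d = x⁻¹) : s ≤ 𝐨(T d ⊓ 𝐂[x]) := by
  have hi' : d * x * d⁻¹ = x⁻¹ := by rw [hd.inv_eq, hi]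
  have hdn : d ∈ 𝐍(𝐂[x]) := by
    rw [← conj_eq_self_iff, ← cent1_conj, hi', cent1_inv]
  have hn : 𝐂[x] ⊲ 𝐂[x] ⊔ zpowers d :=
    ⟨le_sup_left, sup_le (le_norm_self _) (zpowers_le.2 hdn)⟩
  obtain ⟨P, hP, hdP⟩ := exists_isSyl_ge Nat.prime_two hd.isPGroup
    (le_sup_right : zpowers d ≤ 𝐂[x] ⊔ zpowers d)
  have hdP' : d ∈ P := zpowers_le.1 hdP
  have hs := hP.inf_normal Nat.prime_two hn
  refine (h.ge x d _ ho h1 hi' hs).trans (card_le_of_le (le_inf ?_ inf_le_right))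
  refine h.le_T hd hr hs.pgrp ?_
  rintro σ ⟨h2, h3⟩
  have e : d * (σ * d * σ⁻¹) = 1 := by
    refine h.eq_one ho h1 hi' hP.pgrp
      (P.mul_mem hdP' (P.mul_mem (P.mul_mem h2 hdP') (P.inv_mem h2))) (h.prod d σ hd.sq) ?_
    have : d * σ * d⁻¹ ∈ 𝐂[x] := (mem_normalizer_iff.1 hdn σ).1 h3
    have e : d * (σ * d * σ⁻¹) = d * σ * d⁻¹ * σ⁻¹ := by rw [hd.inv_eq]; group
    rw [e]
    exact mul_mem this (inv_mem h3)
  rw [mem_cent1]
  have e2 : σ * d * σ⁻¹ = d := by rw [← hd.inv_eq]; nth_rw 1 [hd.inv_eq]; exact (eq_inv_of_mul_eq_one_right e)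
  calc d * σ = σ * d * σ⁻¹ * σ := by rw [e2]
    _ = σ * d := by group

/-- Lemma A. -/
theorem lemA {K : Subgroup L} {d c : L} (hd : d * d = 1) (hdK : d ∈ K) (hc : P6.Inv c)
    (hr : c ∈ Re) (hcK : c ∈ K) (hcd : c * d = d * c)
    (ho : ∀ g ∈ K, Odd (orderOf (d * (g * d * g⁻¹)))) {g : L} (hg : g ∈ K) :
    c * d * (g * d * g⁻¹) = g * d * g⁻¹ * (c * d) := by
  have hdi : d⁻¹ = d := inv_eq_of_mul_eq_one_right hd
  have fix : ∀ k ∈ K, c * (k * d * k⁻¹) = k * d * k⁻¹ * c → k * d * k⁻¹ = d := by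
    intro k hk e
    have hs : k * d * k⁻¹ * (k * d * k⁻¹) = 1 := P1.ZS.conj_mul_self hd k
    rcases h.f1 c (d * (k * d * k⁻¹)) d hr hc.isPGroup (ho k hk)
      (by rw [mul_inv_rev, inv_eq_of_mul_eq_one_right hs, ← mul_assoc d d, hd, one_mul])
      (by rw [← mul_assoc, hcd, mul_assoc, e, ← mul_assoc]) with e | e
    · exact absurd e hc.ne
    · rw [← hdi]; nth_rw 1 [hdi]; exact eq_inv_of_mul_eq_one_right e
  set d' := g * d * g⁻¹ with hd'
  have hs : d' * d' = 1 := P1.ZS.conj_mul_self hd g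
  have hs2 : c * d' * c * (c * d' * c) = 1 := by
    calc c * d' * c * (c * d' * c) = c * (d' * (c * c) * d') * c := by group
      _ = 1 := by rw [hc.sq, mul_one, hs, mul_one, hc.sq]
  have hd'K : d' ∈ K := mul_mem (mul_mem hg hdK) (inv_mem hg)
  set y := d' * (c * d' * c) with hy
  have hyK : y ∈ K := mul_mem hd'K (mul_mem (mul_mem hcK hd'K) hcK)
  have hyo : Odd (orderOf y) := by
    have := ho (g⁻¹ * c * g) (mul_mem (mul_mem (inv_mem hg) hcK) hg)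
    have e : y = g * (d * (g⁻¹ * c * g * d * (g⁻¹ * c * g)⁻¹)) * g⁻¹ := by
      rw [hy, hd', mul_inv_rev, mul_inv_rev, hc.inv_eq]; group
    rw [e, ← MulAut.conj_apply, MulEquiv.orderOf_eq]
    exact this
  obtain ⟨m, hm⟩ := exists_pow_eq_self_of_coprime (x := y) (n := 4)
    (by
      have : Nat.Coprime 2 (orderOf y) := (Nat.coprime_two_left).2 hyo
      simpa using this.pow_left 2)
  set w := y ^ m with hw
  have hw4 : w * w * (w * w) = y := by
    rw [← hm, hw, ← pow_mul, mul_comm 4 m, pow_mul]; simp only [pow_succ, pow_zero]; group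
  have cy : c * y * c = y⁻¹ := by
    rw [hy, mul_inv_rev, inv_eq_of_mul_eq_one_right hs, inv_eq_of_mul_eq_one_right hs2]
    calc c * (d' * (c * d' * c)) * c = c * d' * c * d' * (c * c) := by group
      _ = _ := by rw [hc.sq, mul_one]
  have dy : d' * y * d' = y⁻¹ := by
    rw [hy, mul_inv_rev, inv_eq_of_mul_eq_one_right hs, inv_eq_of_mul_eq_one_right hs2,
      ← mul_assoc d' d', hs, one_mul]
  have cw : c * w * c = w⁻¹ := inverts_pow hc.sq cy m
  have dw : d' * w * d' = w⁻¹ := inverts_pow hs dy m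
  have e0 : w⁻¹ * g * d * (w⁻¹ * g)⁻¹ = d' * (w * w) := by
    calc w⁻¹ * g * d * (w⁻¹ * g)⁻¹ = w⁻¹ * d' * w := by rw [hd']; group
      _ = d' * w * (d' * d') * w := by rw [← dw]; group
      _ = _ := by rw [hs]; group
  have cd' : c * d' * c = d' * y := by rw [hy, ← mul_assoc d' d', hs, one_mul]
  have e1 : d' * (w * w) = d := by
    rw [← e0]
    refine fix _ (mul_mem (inv_mem (pow_mem hyK m)) hg) ?_
    rw [e0]
    have hm' : ∀ p q : L, c * (p * q) * c = c * p * c * (c * q * c) := fun p q => by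
      calc c * (p * q) * c = c * p * (c * c) * q * c := by rw [hc.sq]; group
        _ = _ := by group
    have e2 : c * (d' * (w * w)) * c = d' * (w * w) := by
      rw [hm', hm' w w, cd', cw, ← hw4]; simp only [mul_assoc, mul_inv_cancel_left, mul_inv_cancel, mul_one]
    calc c * (d' * (w * w)) = c * (d' * (w * w)) * (c * c) := by rw [hc.sq, mul_one]
      _ = _ := by rw [← mul_assoc, e2]
  have e3 : c * d' * c = d * d' * d := by
    rw [cd', ← hw4]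
    calc d' * (w * w * (w * w)) = d' * (w * w) * (d' * d') * (w * w) := by
          rw [hs]; simp only [mul_assoc, mul_one]
      _ = d' * (w * w) * d' * (d' * (w * w)) := by simp only [mul_assoc]
      _ = _ := by rw [e1]
  calc c * d * d' = c * (d * d' * d) * d⁻¹ := by group
    _ = c * c * d' * c * d := by rw [← e3, hdi]; group
    _ = _ := by rw [hc.sq]; group

/-- Lemma A applied to an inverted element. -/
theorem lemA' {K : Subgroup L} {d c x : L} (hd : d * d = 1) (hdK : d ∈ K) (hc : P6.Inv c)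
    (hr : c ∈ Re) (hcK : c ∈ K) (hcd : c * d = d * c)
    (ho : ∀ g ∈ K, Odd (orderOf (d * (g * d * g⁻¹)))) (hx : x ∈ K) (hxo : Odd (orderOf x))
    (hi : d * x * d = x⁻¹) : c * d ∈ 𝐂[x] := by
  have e1 := h.lemA hd hdK hc hr hcK hcd ho hx
  have e2 : c * d * d = d * (c * d) := by rw [← mul_assoc, ← hcd]
  have e3 : d * (x * d * x⁻¹) = x⁻¹ * x⁻¹ := by rw [← hi]; group
  have : x⁻¹ * x⁻¹ ∈ 𝐂[c * d] := by
    rw [← e3]
    exact mul_mem (mem_cent1.2 e2) (mem_cent1.2 e1)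
  rw [← mul_inv_rev, inv_mem_iff] at this
  exact mem_cent1_comm.1 (mem_of_sq_mem hxo this)

end Hy

/-- A 2-group centralized by an inverting pair and by a commuting pair of conjugates. -/
def Cfg (a : L) (Y : Subgroup L) : Prop :=
  IsPGroup 2 Y ∧ (∃ d x, IsConj a d ∧ d ∈ 𝐂(Y) ∧ x ∈ 𝐂(Y) ∧ Odd (orderOf x) ∧ x ≠ 1 ∧
    d * x * d = x⁻¹) ∧
    ∃ e e', IsConj a e ∧ IsConj a e' ∧ e ∈ 𝐂(Y) ∧ e' ∈ 𝐂(Y) ∧ e ≠ e' ∧ e * e' = e' * e

theorem inv_of_isConj {a d : L} (ha : P6.Inv a) (h : IsConj a d) : P6.Inv d := by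
  obtain ⟨g, rfl⟩ := isConj_iff.1 h
  exact ha.conj g

theorem isConj_conj {a d : L} (h : IsConj a d) (g : L) : IsConj a (g * d * g⁻¹) :=
  h.trans (isConj_iff.2 ⟨g, rfl⟩)

namespace Hy

variable {Re : Set L} {Cl : L → Subgroup L} {s : ℕ} (h : Hy Re Cl s)
include h

theorem re_of_isConj {a d : L} (ha : a ∈ Re) (hd : IsConj a d) : d ∈ Re := by
  obtain ⟨g, rfl⟩ := isConj_iff.1 hd
  exact h.conj a g ha

theorem re_mul {d e : L} (hd : d * d = 1) (he : IsConj d e) : d * e ∈ Re := by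
  obtain ⟨g, rfl⟩ := isConj_iff.1 he
  exact h.prod d g hd

/-- Lemma B. -/
theorem lemB {a : L} (ha : P6.Inv a) (hr : a ∈ Re) {K : Subgroup L} {d x e e' : L}
    (hd : IsConj a d) (hdK : d ∈ K) (hx : x ∈ K) (ho : Odd (orderOf x)) (h1 : x ≠ 1)
    (hi : d * x * d = x⁻¹) (he : IsConj a e) (he' : IsConj a e') (heK : e ∈ K) (he'K : e' ∈ K)
    (hne : e ≠ e') (hc : e * e' = e' * e) :
    ∃ w ∈ K, w * d * w⁻¹ ≠ d ∧ d * (w * d * w⁻¹) = w * d * w⁻¹ * d := by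
  by_contra hn
  push Not at hn
  have id := inv_of_isConj ha hd
  have ie := inv_of_isConj ha he
  have ie' := inv_of_isConj ha he'
  have odd : ∀ g ∈ K, Odd (orderOf (d * (g * d * g⁻¹))) := fun g hg =>
    odd_of_iso id.sq hdK (fun k hk e => by_contra fun n => hn k hk n e) hg
  have h2 : IsPGroup 2 ↥(zpowers e ⊔ zpowers e') :=
    isPGroup_sup ie.isPGroup ie'.isPGroup (zpowers_le.2 (cent_le_norm _ (by
      rw [cent_zpowers]; exact mem_cent1.2 hc.symm)))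
  obtain ⟨P, hP, hle⟩ := exists_isSyl_ge Nat.prime_two h2
    (sup_le (zpowers_le.2 heK) (zpowers_le.2 he'K))
  obtain ⟨g, hg, hdg⟩ := hP.exists_le_conj Nat.prime_two id.isPGroup (zpowers_le.2 hdK)
  have hdP : d ∈ P ^ᵍ g := zpowers_le.1 hdg
  have hPg : IsPGroup 2 ↥(P ^ᵍ g) := (hP.conj g).pgrp
  have main : ∀ c, IsConj a c → c ∈ K → c ∈ P ^ᵍ g → c = d := by
    intro c hc hcK hcP
    have ic := inv_of_isConj ha hc
    have e1 : d * (c * d * c⁻¹) = 1 := one_of_odd_mem hPg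
      (mul_mem hdP (mul_mem (mul_mem hcP hdP) (inv_mem hcP))) (odd c hcK)
    have e2 : c * d = d * c := by
      calc c * d = d⁻¹ * (d * (c * d * c⁻¹)) * c := by group
        _ = _ := by rw [e1, id.inv_eq, mul_one]
    have hm := h.lemA' id.sq hdK ic (h.re_of_isConj hr hc) hcK e2 odd hx ho hi
    have e3 : c * d = 1 := h.eq_one (g := d) ho h1 (by rw [id.inv_eq, hi]) hPg (mul_mem hcP hdP)
      (h.re_mul ic.sq (hc.symm.trans hd)) hm
    rw [← id.inv_eq]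
    exact eq_inv_of_mul_eq_one_left e3
  have m1 : e ∈ P := hle (le_sup_left (a := zpowers e) (mem_zpowers e))
  have m2 : e' ∈ P := hle (le_sup_right (a := zpowers e) (mem_zpowers e'))
  have a1 := main _ (isConj_conj he g) (mul_mem (mul_mem hg heK) (inv_mem hg)) (conj_mem_conj m1 g)
  have a2 := main _ (isConj_conj he' g) (mul_mem (mul_mem hg he'K) (inv_mem hg))
    (conj_mem_conj m2 g)
  exact hne (by simpa using a1.trans a2.symm)

/-- The final count. -/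
theorem count {Q S Y : Subgroup L} {e c u x g : L} (hQ : IsPGroup 2 Q) (hSQ : S ≤ Q)
    (hs : s ≤ 𝐨(S)) (ho : Odd (orderOf x)) (h1 : x ≠ 1) (hi : g * x * g⁻¹ = x⁻¹)
    (hSx : S ≤ 𝐂[x]) (hY : Y = S ⊓ 𝐂[e]) (ie : P6.Inv e) (re : e ∈ Re) (heQ : e ∈ Q)
    (rc : c ∈ Re) (c1 : c ≠ 1) (hSc : S ≤ 𝐂[c]) (hec : e ∈ 𝐂[c]) (hYc : Y ≤ Cl c)
    (hu : u ∈ S) (heu : e * u ∈ Cl c) : False := by
  have hS : IsPGroup 2 S := hQ.to_le hSQ
  have hYS : Y ≤ S := hY ▸ inf_le_left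
  have no : ∀ l ∈ S, l ∈ Re → l = 1 := fun l hl hr => h.eq_one ho h1 hi hS hl hr (hSx hl)
  let r : L → L := fun σ => ((QuotientGroup.mk σ : L ⧸ Y).out)⁻¹ * σ
  have hr : ∀ σ, r σ ∈ Y := fun σ => QuotientGroup.eq.1 (QuotientGroup.out_eq' _)
  have hcom : ∀ σ, e * (σ * e * σ⁻¹) = ⁅e, σ⁆ := fun σ => by
    rw [commutatorElement_def, ie.inv_eq]; group
  let Φ : Option S → ↥(Q ⊓ Cl c) := fun o => match o with
    | none => ⟨e * u, mul_mem heQ (hSQ hu), heu⟩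
    | some σ => ⟨e * (σ * e * σ⁻¹) * r σ,
        mul_mem (mul_mem heQ (mul_mem (mul_mem (hSQ σ.2) heQ) (Q.inv_mem (hSQ σ.2))))
          (hSQ (hYS (hr σ))),
        mul_mem (hcom σ ▸ h.der c e σ hec (hSc σ.2)) (hYc (hr σ))⟩
  have aux : ∀ σ : S, e * u ≠ e * (σ * e * σ⁻¹) * r σ := by
    intro σ e1
    have e2 : (σ : L) * e * σ⁻¹ = u * (r σ)⁻¹ := by
      calc (σ : L) * e * σ⁻¹ = e⁻¹ * (e * (σ * e * σ⁻¹) * r σ) * (r σ)⁻¹ := by group
        _ = _ := by rw [← e1]; group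
    refine (ie.conj σ).ne (no _ ?_ (h.conj e σ re))
    have : (σ : L) * e * (σ : L)⁻¹ = u * (r σ)⁻¹ := e2
    rw [this]
    exact mul_mem hu (inv_mem (hYS (hr σ)))
  have inj : Function.Injective Φ := by
    rintro (_ | σ) (_ | τ) e1
    · rfl
    · exact absurd (congrArg Subtype.val e1) (aux τ)
    · exact absurd (congrArg Subtype.val e1).symm (aux σ)
    · have e2 : e * (σ * e * (σ : L)⁻¹) * r σ = e * (τ * e * (τ : L)⁻¹) * r τ :=
        congrArg Subtype.val e1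
      have iτ := ie.conj (τ : L)
      have e3 : τ * e * (τ : L)⁻¹ * (σ * e * (σ : L)⁻¹) = r τ * (r σ)⁻¹ := by
        calc τ * e * (τ : L)⁻¹ * (σ * e * (σ : L)⁻¹)
            = τ * e * (τ : L)⁻¹ * e⁻¹ * (e * (σ * e * (σ : L)⁻¹) * r σ) * (r σ)⁻¹ := by group
          _ = τ * e * (τ : L)⁻¹ * (τ * e * (τ : L)⁻¹) * r τ * (r σ)⁻¹ := by rw [e2]; group
          _ = _ := by rw [iτ.sq, one_mul]
      have e4 : τ * e * (τ : L)⁻¹ * (σ * e * (σ : L)⁻¹) = 1 := by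
        refine no _ ?_ (h.re_mul iτ.sq
          ((isConj_conj (IsConj.refl e) (τ : L)).symm.trans (isConj_conj (IsConj.refl e) (σ : L))))
        rw [e3]
        exact hYS (mul_mem (hr τ) (inv_mem (hr σ)))
      have e5 : r τ = r σ := by rw [e4] at e3; exact mul_inv_eq_one.1 e3.symm
      have e6 : σ * e * (σ : L)⁻¹ = τ * e * (τ : L)⁻¹ := by
        rw [← iτ.inv_eq]; exact eq_inv_of_mul_eq_one_right e4
      have e7 : (σ : L)⁻¹ * τ ∈ Y := by
        rw [hY]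
        refine ⟨S.mul_mem (S.inv_mem σ.2) τ.2, mem_cent1.2 ?_⟩
        calc e * ((σ : L)⁻¹ * τ) = (σ : L)⁻¹ * (σ * e * (σ : L)⁻¹) * τ := by group
          _ = _ := by rw [e6]; group
      have e8 : (QuotientGroup.mk (σ : L) : L ⧸ Y) = QuotientGroup.mk (τ : L) := QuotientGroup.eq.2 e7
      simp only [r, e8, mul_right_inj] at e5
      exact congrArg some (Subtype.ext e5.symm)
  have c1 := h.le c (Q ⊓ Cl c) rc c1 inf_le_right (hQ.to_le inf_le_left)
  have c2 := Nat.card_le_card_of_injective Φ inj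
  rw [Finite.card_option] at c2
  omega

theorem false_of {a x : L} (ha : P6.Inv a) (hr : a ∈ Re) (ho : Odd (orderOf x)) (h1 : x ≠ 1)
    (hi : a * x * a = x⁻¹) : False := by
  have hb : ∀ z : L, z ∈ 𝐂((⊥ : Subgroup L)) := fun z => by rw [cent_bot]; exact mem_top z
  have h0 : Cfg a ⊥ := by
    refine ⟨IsPGroup.of_bot, ⟨a, x, IsConj.refl a, hb _, hb _, ho, h1,
      hi⟩, ?_⟩
    by_contra hn
    have hz := P1.zstar ha.orderOf_eq (fun g hg => by
      by_contra hne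
      exact hn ⟨a, g * a * g⁻¹, IsConj.refl a, isConj_conj (IsConj.refl a) g, hb _,
        hb _, Ne.symm hne, hg.eq⟩) x
    rw [h.core, mem_bot, commutatorElement_def, ha.inv_eq, hi] at hz
    exact h1 (eq_one_of_eq_inv ho (by
      have := eq_inv_of_mul_eq_one_left hz
      rw [inv_inv] at this; exact this.symm))
  obtain ⟨Y, ⟨hY, ⟨d, x, hd, hdY, hxY, ho, h1, hi⟩, e0, e1, he0, he1, m0, m1, hne, hc⟩, hmax⟩ :=
    exists_max_card (P := Cfg a) ⟨_, h0⟩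
  obtain ⟨w, hw, hwd, hcw⟩ := h.lemB ha hr hd hdY hxY ho h1 hi he0 he1 m0 m1 hne hc
  set e := w * d * w⁻¹ with he
  have id := inv_of_isConj ha hd
  have rd := h.re_of_isConj hr hd
  have ce : IsConj a e := isConj_conj hd w
  have ie := inv_of_isConj ha ce
  have re := h.re_of_isConj hr ce
  have heY : e ∈ 𝐂(Y) := mul_mem (mul_mem hw hdY) (inv_mem hw)
  have hi' : d * x * d⁻¹ = x⁻¹ := by rw [id.inv_eq, hi]
  have hQ : IsPGroup 2 (T d) := (h.syl id rd).1.pgrp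
  have hQd : T d ≤ 𝐂[d] := (h.syl id rd).1.le
  set S := T d ⊓ 𝐂[x] with hSdef
  have hS : IsPGroup 2 S := hQ.to_le inf_le_left
  have hs : s ≤ 𝐨(S) := h.ge_S id rd ho h1 hi
  have hYS : Y ≤ S := le_inf (h.le_T id rd hY (mem_cent_iff_cent1.1 hdY)) (mem_cent_iff_cent1.1 hxY)
  have no : ∀ l ∈ S, l ∈ Re → l = 1 := fun l hl hr => h.eq_one ho h1 hi' hS hl hr hl.2
  have heQ : e ∈ T d := h.mem_T id rd ie.sq hcw
  have hde : ∀ y ∈ Y, d * e ∈ Cl y := fun y hy => by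
    have : d * e = ⁅d, w⁆ := by rw [commutatorElement_def, id.inv_eq, he]; group
    rw [this]
    exact h.der y d w (cent_le_cent1 hy hdY) (cent_le_cent1 hy hw)
  have ide : P6.Inv (d * e) := id.mul ie (Ne.symm hwd) hcw
  have rde : d * e ∈ Re := h.re_mul id.sq (hd.symm.trans ce)
  by_cases hsY : s ≤ 𝐨(Y)
  · have hP : IsPGroup 2 ↥(zpowers (d * e) ⊔ Y) :=
      isPGroup_sup ide.isPGroup hY (zpowers_le.2 (cent_le_norm _ (mul_mem hdY heY)))
    have c1 := h.le (d * e) _ rde ide.ne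
      (sup_le (zpowers_le.2 (h.self _)) fun y hy => h.symm _ _ (hde y hy)) hP
    have e1 : Y = zpowers (d * e) ⊔ Y := eq_of_le_of_card_ge le_sup_right (c1.trans hsY)
    refine ide.ne (no _ (hYS ?_) rde)
    rw [e1]
    exact le_sup_left (a := zpowers (d * e)) (mem_zpowers _)
  have hlt : Y < S := lt_of_le_of_ne hYS fun e => hsY (e ▸ hs)
  obtain ⟨u, huS, huN, huY, huu⟩ := exists_sq_step hS hlt
  have hY1S : Y ⊔ zpowers u ≤ S := sup_le hYS (zpowers_le.2 huS)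
  have hdK : d ∈ 𝐂(Y ⊔ zpowers u) := mem_cent_iff_cent1.2 (hY1S.trans (inf_le_left.trans hQd))
  have hxK : x ∈ 𝐂(Y ⊔ zpowers u) := mem_cent_iff_cent1.2 (hY1S.trans inf_le_right)
  have nop : ∀ e', IsConj a e' → e' ∈ 𝐂(Y ⊔ zpowers u) → d * e' = e' * d → e' = d := by
    intro e' h2 h3 h4
    by_contra hn
    have := hmax (Y ⊔ zpowers u) ⟨hS.to_le hY1S, ⟨d, x, hd, hdK, hxK, ho, h1, hi⟩,
      d, e', hd, h2, hdK, h3, Ne.symm hn, h4⟩
    apply huY
    rw [eq_of_le_of_card_ge (le_sup_left : Y ≤ Y ⊔ zpowers u) this]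
    exact le_sup_right (a := Y) (mem_zpowers u)
  have odd : ∀ g ∈ 𝐂(Y ⊔ zpowers u), Odd (orderOf (d * (g * d * g⁻¹))) := fun g hg =>
    odd_of_iso id.sq hdK (fun k hk e => nop _ (isConj_conj hd k)
      (mul_mem (mul_mem hk hdK) (inv_mem hk)) e) hg
  have hud : d * u = u * d := mem_cent1.1 (hQd huS.1)
  have nC : ∀ z ∈ 𝐂(Y), u * z * u⁻¹ ∈ 𝐂(Y) := fun z hz => by
    have := conj_mem_conj hz u
    rwa [← cent_conj, conj_eq_of_mem_norm huN] at this
  set e' := u * e * u⁻¹ with he'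
  have ie' : P6.Inv e' := ie.conj u
  have he'Y : e' ∈ 𝐂(Y) := nC e heY
  have he'Q : e' ∈ T d := mul_mem (mul_mem huS.1 heQ) (inv_mem huS.1)
  have hf1 : e * e' ≠ 1 := fun e1 => by
    have e2 : e' = e := by rw [← ie.inv_eq]; exact eq_inv_of_mul_eq_one_right e1
    refine hwd (nop e ce ?_ hcw)
    rw [cent_sup, cent_zpowers]
    exact ⟨heY, mem_cent1.2 (by rw [← mul_inv_eq_iff_eq_mul]; exact e2)⟩
  obtain ⟨k, -, hk2, hkc⟩ := P1.ZS.exists_half ie.sq ie'.sq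
    fun o => hf1 (one_of_odd_mem hQ (mul_mem heQ he'Q) o)
  set c := (e * e') ^ k with hcdef
  have ic : P6.Inv c := inv_of_orderOf hk2
  have hcQ : c ∈ T d := pow_mem (mul_mem heQ he'Q) k
  have rc : c ∈ Re := by
    have : IsConj e (e * c) := by
      rcases Nat.even_or_odd' k with ⟨m, rfl | rfl⟩
      · rw [hcdef, ← P1.ZS.conj_even ie.sq ie'.sq]
        exact isConj_iff.2 ⟨_, by rw [inv_inv]⟩
      · rw [hcdef, ← P1.ZS.conj_odd ie.sq ie'.sq]
        exact (isConj_conj (IsConj.refl e) u).trans (isConj_iff.2 ⟨_, by rw [inv_inv]⟩)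
    have := h.re_mul ie.sq this
    rwa [ie.mul_cancel_left] at this
  have hcK : c ∈ 𝐂(Y ⊔ zpowers u) := by
    rw [cent_sup, cent_zpowers]
    refine ⟨pow_mem (mul_mem heY he'Y) k, mem_cent1.2 ?_⟩
    have e1 : u * e' * u⁻¹ = e := by
      have := mem_cent.1 heY _ huu
      calc u * e' * u⁻¹ = u * u * e * u⁻¹ * u⁻¹ := by rw [he']; group
        _ = _ := by rw [this]; group
    have e2 : u * (e * e') * u⁻¹ = (e * e')⁻¹ := by
      rw [mul_inv_rev, ie.inv_eq, ie'.inv_eq]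
      calc u * (e * e') * u⁻¹ = u * e * u⁻¹ * (u * e' * u⁻¹) := by group
        _ = _ := by rw [e1]
    rw [← mul_inv_eq_iff_eq_mul, hcdef, ← conj_pow, e2, inv_pow]
    exact ic.inv_eq
  have hcd : c * d = d * c := (mem_cent1.1 (hQd hcQ)).symm
  have hcdS : c * d ∈ S := ⟨mul_mem hcQ (h.mem_T id rd id.sq rfl),
    h.lemA' id.sq hdK ic rc hcK hcd odd hxK ho hi⟩
  have hcd2 : c * d * (c * d) = 1 := by
    calc c * d * (c * d) = c * (d * c) * d := by group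
      _ = c * c * (d * d) := by rw [← hcd]; group
      _ = 1 := by rw [ic.sq, id.sq, mul_one]
  have hSc : S ≤ 𝐂[c] := fun σ hσ => by
    have e1 : c * d * (σ * (c * d) * σ⁻¹) = 1 :=
      no _ (mul_mem hcdS (mul_mem (mul_mem hσ hcdS) (inv_mem hσ))) (h.prod _ σ hcd2)
    have e2 : σ * (c * d) * σ⁻¹ = c * d := by
      rw [eq_inv_of_mul_eq_one_right e1, inv_eq_of_mul_eq_one_right hcd2]
    have m1 : c * d ∈ 𝐂[σ] := mem_cent1_comm.1 (mem_cent1_iff_conj.2 e2)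
    have m2 : d ∈ 𝐂[σ] := mem_cent1_comm.1 (hQd hσ.1)
    exact mem_cent1_comm.1 ((Subgroup.mul_mem_cancel_right _ m2).1 m1)
  have hYc : Y ≤ Cl c := fun y hy => by
    refine h.symm _ _ (pow_mem ?_ k)
    have : e * e' = ⁅e, u * w * u⁻¹ * w⁻¹⁆ := by
      rw [commutatorElement_def, ie.inv_eq, he', he]
      calc w * d * w⁻¹ * (u * (w * d * w⁻¹) * u⁻¹)
          = w * d * w⁻¹ * (u * w * u⁻¹ * (u * d) * w⁻¹ * u⁻¹) := by group
        _ = _ := by rw [← hud]; group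
    rw [this]
    exact h.der y _ _ (cent_le_cent1 hy heY) (cent_le_cent1 hy (mul_mem (nC w hw) (inv_mem hw)))
  have hYe : Y = S ⊓ 𝐂[e] := by
    refine eq_of_le_of_card_ge (le_inf hYS (mem_cent_iff_cent1.1 heY)) (hmax _ ⟨hS.to_le inf_le_left,
      ⟨d, x, hd, ?_, ?_, ho, h1, hi⟩, d, e, hd, ce, ?_, ?_, Ne.symm hwd, hcw⟩)
    · exact mem_cent_iff_cent1.2 (inf_le_left.trans (inf_le_left.trans hQd))
    · exact mem_cent_iff_cent1.2 (inf_le_left.trans inf_le_right)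
    · exact mem_cent_iff_cent1.2 (inf_le_left.trans (inf_le_left.trans hQd))
    · exact mem_cent_iff_cent1.2 inf_le_right
  have heu : e * u ∈ Cl c := by
    have m1 : d ∈ Cl (u * u) := h.symm _ _ (h.sqm d u id.sq (hQd huS.1))
    have m2 : e ∈ Cl (u * u) := (Subgroup.mul_mem_cancel_left _ m1).1 (hde _ huu)
    exact h.symm _ _ (pow_mem (h.symm _ _ (h.key e u ie.sq (h.symm _ _ m2))) k)
  exact h.count hQ inf_le_left hs ho h1 hi' inf_le_right hYe ie re heQ rc ic.ne hSc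
    (mem_cent1.2 hkc.eq.symm) hYc huS heu

theorem false_of' {i : L} (hi : P6.Inv i) (hz : i ∉ center L)
    (hQ : ∀ e ∈ pCore 2 L, e ∈ Re → e * e = 1 → e = 1) : False := by
  have : ∃ g : L, Commute i (g * i * g⁻¹) ∧ g * i * g⁻¹ ≠ i := by
    by_contra hn
    push Not at hn
    refine hz (mem_center_iff.2 fun g => ?_)
    have := P1.zstar hi.orderOf_eq hn g
    rw [h.core, mem_bot, commutatorElement_eq_one_iff_mul_comm] at this
    exact this.symm
  obtain ⟨g, hc, hne⟩ := this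
  have ia : P6.Inv (i * (g * i * g⁻¹)) := hi.mul (hi.conj g) (Ne.symm hne) hc.eq
  have ra := h.prod i g hi.sq
  obtain ⟨x, hp, h2, hx, -⟩ := Cfsg.Agent.L.exists_inverted_of_not_mem_pCore ia.sq
    fun m => ia.ne (hQ _ m ra ia.sq)
  rw [ia.inv_eq] at hx
  exact h.false_of ia ra (hp.odd_of_ne_two h2) (fun e => by
    rw [e, orderOf_one] at hp; exact Nat.not_prime_one hp) hx

end Hy

end Cfsg.Agent.P30
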